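import Mathlib
import Cfsg.Prelude.Def_TwoFusion

set_option autoImplicit false

/-! Project SY (S2221): direct decomposability of the Sylow 2-subgroups of the alternating
groups. This file only states the package lemmas as `Prop`s. -/

namespace Cfsg.Agent.Lib.Helper73.SY

open Equiv

/-- `P` is the internal direct product of two nontrivial subgroups. -/
def Dec {G : Type} [Group G] (P : Subgroup G) : Prop :=
  ∃ S₁ S₂ : Subgroup G, S₁ ≠ ⊥ ∧ S₂ ≠ ⊥ ∧ S₁ ≤ P ∧ S₂ ≤ P ∧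
    (∀ a ∈ S₁, ∀ b ∈ S₂, a * b = b * a) ∧ S₁ ⊓ S₂ = ⊥ ∧ S₁ ⊔ S₂ = P

/-- `Q` is a maximal 2-subgroup of `Perm α`. -/
def IsSyl2 {α : Type} (Q : Subgroup (Perm α)) : Prop :=
  IsPGroup 2 ↥Q ∧ ∀ R : Subgroup (Perm α), IsPGroup 2 ↥R → Q ≤ R → R = Q

/-- The elements of `Q` fixing every point outside `O`. -/
def part {α : Type} (Q : Subgroup (Perm α)) (O : Finset α) : Subgroup (Perm α) :=
  Q ⊓ fixingSubgroup (Perm α) ((↑O : Set α)ᶜ)

/-- `c` fixes every point outside `O` and permutes `O` cyclically. -/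
def FullCycle {α : Type} (c : Perm α) (O : Finset α) : Prop :=
  (∀ x, x ∉ O → c x = x) ∧ ∀ x ∈ O, ∀ y ∈ O, ∃ k : ℕ, (c ^ k) x = y

/-- The 2-group `Q` splits along the pairwise disjoint sets of `𝒪` (each with at least 4
points, a full cycle and a transposition in `Q`) and the tail `T` (empty, or two points
swapped by an element of `Q`). -/
def Struct {α : Type} [DecidableEq α] (Q : Subgroup (Perm α)) (𝒪 : Finset (Finset α))
    (T : Finset α) : Prop :=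
  IsPGroup 2 ↥Q ∧
  (∀ O ∈ 𝒪, ∀ O' ∈ 𝒪, O ≠ O' → Disjoint O O') ∧
  (∀ O ∈ 𝒪, Disjoint O T) ∧
  (∀ q ∈ Q, ∀ x, x ∉ T → (∀ O ∈ 𝒪, x ∉ O) → q x = x) ∧
  (∀ q ∈ Q, ∀ O ∈ 𝒪, ∀ x ∈ O, q x ∈ O) ∧
  (∀ q ∈ Q, ∀ O ∈ 𝒪, ∃ q' ∈ Q, (∀ x ∈ O, q' x = q x) ∧ ∀ x, x ∉ O → q' x = x) ∧
  (∀ O ∈ 𝒪, 4 ≤ O.card ∧ (∃ c ∈ Q, FullCycle c O) ∧
    ∃ a ∈ O, ∃ b ∈ O, a ≠ b ∧ swap a b ∈ Q) ∧
  (T = ∅ ∨ ∃ u v : α, u ≠ v ∧ T = {u, v} ∧ swap u v ∈ Q)

/-- Package ZW: the centre of a 2-group on `O` containing a full cycle and a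
transposition. -/
def LemZW : Prop :=
  ∀ (α : Type) [Fintype α] [DecidableEq α] (W : Subgroup (Perm α)) (O : Finset α)
    (c : Perm α) (a b : α),
    IsPGroup 2 ↥W → (∀ w ∈ W, ∀ x, x ∉ O → w x = x) → c ∈ W → FullCycle c O →
    4 ≤ O.card → a ∈ O → b ∈ O → a ≠ b → swap a b ∈ W →
    ∃ z₀ ∈ W, Perm.sign z₀ = 1 ∧ z₀ ≠ 1 ∧ (∀ w ∈ W, z₀ * w = w * z₀) ∧
      ∀ z ∈ W, (∀ w ∈ W, z * w = w * z) → z = 1 ∨ z = z₀

/-- Package CI: a 2-group on `O` containing a full cycle is not a proper central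
product. -/
def LemCI : Prop :=
  ∀ (α : Type) [Fintype α] [DecidableEq α] (W A B : Subgroup (Perm α)) (O : Finset α)
    (c : Perm α),
    IsPGroup 2 ↥W → (∀ w ∈ W, ∀ x, x ∉ O → w x = x) → c ∈ W → FullCycle c O →
    A ≤ W → B ≤ W → (∀ a ∈ A, ∀ b ∈ B, a * b = b * a) →
    (∀ w ∈ W, ∃ a ∈ A, ∃ b ∈ B, w = a * b) → W ≤ A ∨ W ≤ B

/-- Package IND: a decomposable finite 2-group has two distinct nontrivial central
elements. -/
def LemInd : Prop :=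
  ∀ (G : Type) [Group G] [Finite G] (P : Subgroup G), IsPGroup 2 ↥P → Dec P →
    ∃ z₁ ∈ P, ∃ z₂ ∈ P, z₁ ≠ 1 ∧ z₂ ≠ 1 ∧ z₁ ≠ z₂ ∧ (∀ p ∈ P, z₁ * p = p * z₁) ∧
      ∀ p ∈ P, z₂ * p = p * z₂

/-- Package M1: with a tail and at least two big orbits the even part is decomposable. -/
def LemDecTail : Prop :=
  ∀ (α : Type) [Fintype α] [DecidableEq α] (Q : Subgroup (Perm α))
    (𝒪 : Finset (Finset α)) (T : Finset α),
    Struct Q 𝒪 T → T ≠ ∅ → 2 ≤ 𝒪.card → Dec (Q ⊓ alternatingGroup α)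

/-- Package M2: with a tail and one big orbit the even part is indecomposable. -/
def LemIndTail : Prop :=
  ∀ (α : Type) [Fintype α] [DecidableEq α] (Q : Subgroup (Perm α))
    (𝒪 : Finset (Finset α)) (T : Finset α),
    Struct Q 𝒪 T → T ≠ ∅ → 𝒪.card = 1 → ¬ Dec (Q ⊓ alternatingGroup α)

/-- Package M3: without tail and with at least two big orbits the even part is
indecomposable. -/
def LemIndMany : Prop :=
  ∀ (α : Type) [Fintype α] [DecidableEq α] (Q : Subgroup (Perm α))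
    (𝒪 : Finset (Finset α)) (T : Finset α),
    Struct Q 𝒪 T → T = ∅ → 2 ≤ 𝒪.card → ¬ Dec (Q ⊓ alternatingGroup α)

/-- Package M4: without tail and with one big orbit of at least 8 points the even part is
indecomposable. -/
def LemIndOne : Prop :=
  ∀ (α : Type) [Fintype α] [DecidableEq α] (Q : Subgroup (Perm α))
    (𝒪 : Finset (Finset α)) (T : Finset α) (O : Finset α),
    Struct Q 𝒪 T → T = ∅ → 𝒪 = {O} → 8 ≤ O.card → ¬ Dec (Q ⊓ alternatingGroup α)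

/-- Package M5: without tail and with one big orbit of 4 points the even part is a four
group. -/
def LemDecFour : Prop :=
  ∀ (α : Type) [Fintype α] [DecidableEq α] (Q : Subgroup (Perm α))
    (𝒪 : Finset (Finset α)) (T : Finset α) (O : Finset α),
    Struct Q 𝒪 T → IsSyl2 Q → T = ∅ → 𝒪 = {O} → O.card = 4 →
    Dec (Q ⊓ alternatingGroup α)

/-- Package ST1: a maximal 2-subgroup contains the restrictions of its elements to an
invariant set. -/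
def LemRestr : Prop :=
  ∀ (α : Type) [Fintype α] [DecidableEq α] (Q : Subgroup (Perm α)) (O : Finset α),
    IsSyl2 Q → (∀ q ∈ Q, ∀ x ∈ O, q x ∈ O) →
    ∀ q ∈ Q, ∃ q' ∈ Q, (∀ x ∈ O, q' x = q x) ∧ ∀ x, x ∉ O → q' x = x

/-- Package ST1b: the part of a maximal 2-subgroup on an invariant set is a maximal
2-subgroup there. -/
def LemPartSyl : Prop :=
  ∀ (α : Type) [Fintype α] [DecidableEq α] (Q : Subgroup (Perm α)) (O : Finset α),
    IsSyl2 Q → (∀ q ∈ Q, ∀ x ∈ O, q x ∈ O) →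
    ∀ R : Subgroup (Perm α), IsPGroup 2 ↥R → (∀ r ∈ R, ∀ x, x ∉ O → r x = x) →
      part Q O ≤ R → R = part Q O

/-- Package ST2: on an orbit with at least two points a maximal 2-subgroup contains a full
cycle and a transposition. -/
def LemOrbCyc : Prop :=
  ∀ (α : Type) [Fintype α] [DecidableEq α] (Q : Subgroup (Perm α)) (O : Finset α),
    IsSyl2 Q → 2 ≤ O.card → (∀ q ∈ Q, ∀ x ∈ O, q x ∈ O) →
    (∀ x ∈ O, ∀ y ∈ O, ∃ q ∈ Q, q x = y) →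
    (∃ c ∈ Q, FullCycle c O) ∧ ∃ a ∈ O, ∃ b ∈ O, a ≠ b ∧ swap a b ∈ Q

/-- Package ST3: distinct orbits of a maximal 2-subgroup have distinct sizes. -/
def LemOrbDistinct : Prop :=
  ∀ (α : Type) [Fintype α] [DecidableEq α] (Q : Subgroup (Perm α)) (O O' : Finset α),
    IsSyl2 Q → O.Nonempty → O'.Nonempty →
    (∀ q ∈ Q, ∀ x ∈ O, q x ∈ O) → (∀ x ∈ O, ∀ y ∈ O, ∃ q ∈ Q, q x = y) →
    (∀ q ∈ Q, ∀ x ∈ O', q x ∈ O') → (∀ x ∈ O', ∀ y ∈ O', ∃ q ∈ Q, q x = y) →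
    O ≠ O' → O.card ≠ O'.card

/-- Package NUM: sums of distinct powers of two. -/
def LemNum : Prop :=
  ∀ (s : Finset ℕ) (n : ℕ), ∑ k ∈ s, 2 ^ k = n → 4 ≤ n →
    (1 ∈ s ↔ (n % 4 = 2 ∨ n % 4 = 3)) ∧
    ∑ k ∈ s.filter (fun k => 2 ≤ k), 2 ^ k = 4 * (n / 4) ∧
    ((s.filter (fun k => 2 ≤ k)).card = 1 ↔ ∃ r : ℕ, 4 * (n / 4) = 2 ^ r)

/-- Package STRUCT: the orbit structure of a maximal 2-subgroup of `Perm (Fin n)`. -/
def LemStruct : Prop :=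
  ∀ (n : ℕ) (Q : Subgroup (Perm (Fin n))), 4 ≤ n → IsSyl2 Q →
    ∃ (𝒪 : Finset (Finset (Fin n))) (T : Finset (Fin n)), Struct Q 𝒪 T ∧
      (T ≠ ∅ ↔ (n % 4 = 2 ∨ n % 4 = 3)) ∧ ∑ O ∈ 𝒪, O.card = 4 * (n / 4) ∧
      (𝒪.card = 1 ↔ ∃ r : ℕ, 4 * (n / 4) = 2 ^ r)

/-- Package BR: from a Sylow 2-subgroup of the alternating group to a maximal 2-subgroup
of the symmetric group. -/
def LemBridge : Prop :=
  ∀ (n : ℕ) (P : Sylow 2 (alternatingGroup (Fin n))),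
    ∃ Q : Subgroup (Perm (Fin n)), IsSyl2 Q ∧
      ((∃ S₁ S₂ : Subgroup (alternatingGroup (Fin n)), S₁ ≠ ⊥ ∧ S₂ ≠ ⊥ ∧
          Cfsg.IsInternalDirectProduct S₁ S₂ (P : Subgroup (alternatingGroup (Fin n)))) ↔
        Dec (Q ⊓ alternatingGroup (Fin n)))

/-- The statement of S2221. -/
def S2221Stmt : Prop :=
  ∀ (n : ℕ) (_ : 4 ≤ n) (P : Sylow 2 (alternatingGroup (Fin n))),
    (∃ S₁ S₂ : Subgroup (alternatingGroup (Fin n)), S₁ ≠ ⊥ ∧ S₂ ≠ ⊥ ∧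
        Cfsg.IsInternalDirectProduct S₁ S₂ (P : Subgroup (alternatingGroup (Fin n)))) ↔
      (n = 4 ∨ n = 5 ∨ ((n % 4 = 2 ∨ n % 4 = 3) ∧ ∀ r : ℕ, 4 * (n / 4) ≠ 2 ^ r))

end Cfsg.Agent.Lib.Helper73.SY
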