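import Mathlib
import Cfsg.Agent.Lib.Helper73.SY.Defs

set_option autoImplicit false

namespace Cfsg.Agent.Lib.Helper73.SY

open Equiv

/-- Powers of a permutation fix the points it fixes. -/
theorem pow_apply_of_fixed {α : Type} (c : Perm α) (y : α) (h : c y = y) (m : ℕ) :
    (c ^ m) y = y := by
  induction m with
  | zero => rfl
  | succ m ih => rw [pow_succ, Perm.mul_apply, h, ih]

/-- An element supported on `O` commuting with a full cycle on `O` is a power of it. -/
theorem eq_pow_of_commute {α : Type} (c g : Perm α) (O : Finset α)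
    (hc : FullCycle c O) (hg : ∀ x, x ∉ O → g x = x) (hcomm : g * c = c * g) :
    ∃ k : ℕ, g = c ^ k := by
  rcases O.eq_empty_or_nonempty with hO | ⟨x₀, hx₀⟩
  · refine ⟨0, ?_⟩
    ext x
    simp [hg x (by simp [hO])]
  · have hgO : ∀ x ∈ O, g x ∈ O := by
      intro x hx
      by_contra h
      have h1 := hg (g x) h
      have h2 : g x = x := g.injective h1
      rw [h2] at h
      exact h hx
    obtain ⟨k, hk⟩ := hc.2 x₀ hx₀ (g x₀) (hgO x₀ hx₀)
    refine ⟨k, ?_⟩
    ext y
    by_cases hy : y ∈ O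
    · obtain ⟨j, hj⟩ := hc.2 x₀ hx₀ y hy
      have hcomm' : g * c ^ j = c ^ j * g :=
        (Commute.pow_right (show Commute g c from hcomm) j).eq
      rw [← hj]
      calc g ((c ^ j) x₀) = (g * c ^ j) x₀ := rfl
        _ = (c ^ j * g) x₀ := by rw [hcomm']
        _ = (c ^ j) (g x₀) := rfl
        _ = (c ^ j) ((c ^ k) x₀) := by rw [hk]
        _ = (c ^ (j + k)) x₀ := by rw [pow_add]; rfl
        _ = (c ^ (k + j)) x₀ := by rw [add_comm]
        _ = (c ^ k) ((c ^ j) x₀) := by rw [pow_add]; rfl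
    · rw [hg y hy]
      exact (pow_apply_of_fixed c y (hc.1 y hy) k).symm

/-- The order of an element of a 2-group is a power of two. -/
theorem orderOf_two_pow {α : Type} (W : Subgroup (Perm α)) (hW : IsPGroup 2 ↥W)
    (c : Perm α) (hc : c ∈ W) : ∃ e : ℕ, orderOf c = 2 ^ e := by
  obtain ⟨k, hk⟩ := hW ⟨c, hc⟩
  have h1 : c ^ (2 ^ k) = 1 := by
    have := congrArg Subtype.val hk
    simpa using this
  have h2 : orderOf c ∣ 2 ^ k := orderOf_dvd_of_pow_eq_one h1
  obtain ⟨e, _, he⟩ := (Nat.dvd_prime_pow Nat.prime_two).mp h2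
  exact ⟨e, he⟩

theorem lemCI : LemCI := by
  intro α _ _ W A B O c hW hsupp hcW hc hA hB hcomm hprod
  obtain ⟨a₀, ha₀, b₀, hb₀, hcab⟩ := hprod c hcW
  have hab : a₀ * b₀ = b₀ * a₀ := hcomm a₀ ha₀ b₀ hb₀
  have ha₀c : a₀ * c = c * a₀ := by
    rw [hcab, ← mul_assoc, mul_assoc a₀ b₀ a₀, ← hab, mul_assoc]
  have hb₀c : b₀ * c = c * b₀ := by
    rw [hcab, ← mul_assoc, ← hab, mul_assoc]
  obtain ⟨i, hi⟩ := eq_pow_of_commute c a₀ O hc (hsupp a₀ (hA ha₀)) ha₀c
  obtain ⟨j, hj⟩ := eq_pow_of_commute c b₀ O hc (hsupp b₀ (hB hb₀)) hb₀c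
  obtain ⟨e, he⟩ := orderOf_two_pow W hW c hcW
  -- every element of `B` (resp. `A`) commuting with `c` is a power of `c`
  have hBpow : ∀ b ∈ B, b * c = c * b → ∃ k : ℕ, b = c ^ k := fun b hb h =>
    eq_pow_of_commute c b O hc (hsupp b (hB hb)) h
  have hApow : ∀ a ∈ A, a * c = c * a → ∃ k : ℕ, a = c ^ k := fun a ha h =>
    eq_pow_of_commute c a O hc (hsupp a (hA ha)) h
  rcases Nat.eq_zero_or_pos e with he0 | hepos
  · -- `c = 1`, so `O` has at most one point and `W` is trivial
    have hc1 : c = 1 := by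
      rw [he0, pow_zero] at he
      exact orderOf_eq_one_iff.mp he
    left
    intro w hw
    have hw1 : w = 1 := by
      ext y
      by_cases hy : y ∈ O
      · have hwy : w y ∈ O := by
          by_contra h
          have h1 := hsupp w hw (w y) h
          have h2 : w y = y := w.injective h1
          rw [h2] at h
          exact h hy
        obtain ⟨k, hk⟩ := hc.2 y hy (w y) hwy
        rw [hc1, one_pow] at hk
        simpa using hk.symm
      · simpa using hsupp w hw y hy
    rw [hw1]
    exact A.one_mem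
  · -- `c ^ (i + j) = c` with `orderOf c` even: `i` or `j` is odd
    have hN : 1 < orderOf c := by
      rw [he]
      exact Nat.one_lt_two_pow (by omega)
    have hpow : c ^ (i + j) = c ^ 1 := by
      rw [pow_add, ← hi, ← hj, ← hcab, pow_one]
    have hmod : (i + j) % orderOf c = 1 % orderOf c := by
      have := (pow_eq_pow_iff_modEq (x := c)).mp hpow
      exact this
    have h2dvd : 2 ∣ orderOf c := by
      rw [he]
      exact dvd_pow_self 2 (by omega)
    have hodd : (i + j) % 2 = 1 := by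
      have h1 : (i + j) % orderOf c % 2 = (i + j) % 2 := Nat.mod_mod_of_dvd _ h2dvd
      have h2 : 1 % orderOf c % 2 = 1 % 2 := Nat.mod_mod_of_dvd _ h2dvd
      rw [hmod] at h1
      omega
    -- an odd power of `c` generates `c`
    have hgen : ∀ l : ℕ, l % 2 = 1 → ∃ m : ℕ, (c ^ l) ^ m = c := by
      intro l hl
      have hcop : Nat.Coprime l (orderOf c) := by
        rw [he]
        apply Nat.Coprime.pow_right
        rw [Nat.coprime_two_right]  -- Odd l
        exact Nat.odd_iff.mpr hl
      obtain ⟨m, -, hm⟩ := Nat.exists_mul_mod_eq_one_of_coprime hcop hN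
      refine ⟨m, ?_⟩
      rw [← pow_mul, ← pow_mod_orderOf, hm, pow_one]
    rcases Nat.even_or_odd i with hie | hio
    · -- `j` is odd: `c ∈ B`
      right
      have hjo : j % 2 = 1 := by
        have := Nat.even_iff.mp hie
        omega
      obtain ⟨m, hm⟩ := hgen j hjo
      have hcB : c ∈ B := by
        rw [← hm, ← hj]
        exact B.pow_mem hb₀ m
      intro w hw
      obtain ⟨a, ha, b, hb, hwab⟩ := hprod w hw
      obtain ⟨k, hk⟩ := hApow a ha (hcomm a ha c hcB)
      rw [hwab, hk]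
      exact B.mul_mem (B.pow_mem hcB k) hb
    · -- `i` is odd: `c ∈ A`
      left
      have hio' : i % 2 = 1 := Nat.odd_iff.mp hio
      obtain ⟨m, hm⟩ := hgen i hio'
      have hcA : c ∈ A := by
        rw [← hm, ← hi]
        exact A.pow_mem ha₀ m
      intro w hw
      obtain ⟨a, ha, b, hb, hwab⟩ := hprod w hw
      obtain ⟨k, hk⟩ := hBpow b hb (hcomm c hcA b hb).symm
      rw [hwab, hk]
      exact A.mul_mem ha (A.pow_mem hcA k)

end Cfsg.Agent.Lib.Helper73.SY
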