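import Mathlib
import Cfsg.Agent.Lib.Helper73.SY.Defs

set_option autoImplicit false

namespace Cfsg.Agent.Lib.Helper73.SY

open Equiv

theorem s2221_of (hB : LemBridge) (hS : LemStruct) (h1 : LemDecTail) (h2 : LemIndTail)
    (h3 : LemIndMany) (h4 : LemIndOne) (h5 : LemDecFour) : S2221Stmt := by
  intro n hn P
  obtain ⟨Q, hQ, hiff⟩ := hB n P
  rw [hiff]
  obtain ⟨𝒪, T, hStr, hT, hsum, hcard⟩ := hS n Q hn hQ
  have hne : 𝒪.Nonempty := by
    by_contra h
    rw [Finset.not_nonempty_iff_eq_empty] at h
    rw [h, Finset.sum_empty] at hsum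
    omega
  have hpos : 1 ≤ 𝒪.card := Finset.card_pos.mpr hne
  by_cases hmod : n % 4 = 2 ∨ n % 4 = 3
  · have hT' : T ≠ ∅ := hT.mpr hmod
    by_cases hr : ∃ r : ℕ, 4 * (n / 4) = 2 ^ r
    · have hc : 𝒪.card = 1 := hcard.mpr hr
      have hnd := h2 (Fin n) Q 𝒪 T hStr hT' hc
      constructor
      · intro h; exact absurd h hnd
      · rintro (h | h | ⟨_, h⟩)
        · omega
        · omega
        · obtain ⟨r, hr⟩ := hr
          exact absurd hr (h r)
    · have hc : 2 ≤ 𝒪.card := by
        have : 𝒪.card ≠ 1 := fun h => hr (hcard.mp h)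
        omega
      have hd := h1 (Fin n) Q 𝒪 T hStr hT' hc
      constructor
      · intro _
        right; right
        exact ⟨hmod, fun r h => hr ⟨r, h⟩⟩
      · intro _; exact hd
  · have hT' : T = ∅ := by
      by_contra h
      exact hmod (hT.mp h)
    by_cases h45 : n = 4 ∨ n = 5
    · have hr : ∃ r : ℕ, 4 * (n / 4) = 2 ^ r := ⟨2, by rcases h45 with h | h <;> subst h <;> norm_num⟩
      have hc : 𝒪.card = 1 := hcard.mpr hr
      obtain ⟨O, hO⟩ := Finset.card_eq_one.mp hc
      have hOc : O.card = 4 := by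
        rw [hO, Finset.sum_singleton] at hsum
        rcases h45 with h | h <;> subst h <;> omega
      have hd := h5 (Fin n) Q 𝒪 T O hStr hQ hT' hO hOc
      constructor
      · intro _
        rcases h45 with h | h
        · left; exact h
        · right; left; exact h
      · intro _; exact hd
    · have hnd : ¬ Dec (Q ⊓ alternatingGroup (Fin n)) := by
        by_cases hc : 𝒪.card = 1
        · obtain ⟨O, hO⟩ := Finset.card_eq_one.mp hc
          have hOc : 8 ≤ O.card := by
            rw [hO, Finset.sum_singleton] at hsum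
            omega
          exact h4 (Fin n) Q 𝒪 T O hStr hT' hO hOc
        · exact h3 (Fin n) Q 𝒪 T hStr hT' (by omega)
      constructor
      · intro h; exact absurd h hnd
      · rintro (h | h | ⟨h, _⟩)
        · exact absurd (Or.inl h) h45
        · exact absurd (Or.inr h) h45
        · exact absurd h hmod

end Cfsg.Agent.Lib.Helper73.SY
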