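import Mathlib
import Cfsg.Agent.Lib.Helper73.SY.Defs

set_option autoImplicit false

namespace Cfsg.Agent.Lib.Helper73.SY

theorem lemNum : LemNum := by
  intro s n hsum hn
  have hsplit : ∑ k ∈ s.filter (fun k => 2 ≤ k), 2 ^ k +
      ∑ k ∈ s.filter (fun k => ¬ 2 ≤ k), 2 ^ k = ∑ k ∈ s, 2 ^ k :=
    Finset.sum_filter_add_sum_filter_not s (fun k => 2 ≤ k) (fun k => 2 ^ k)
  have hbig : 4 ∣ ∑ k ∈ s.filter (fun k => 2 ≤ k), 2 ^ k := by
    apply Finset.dvd_sum
    intro k hk
    rw [Finset.mem_filter] at hk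
    exact pow_dvd_pow 2 hk.2
  have hset : s.filter (fun k => ¬ 2 ≤ k) = (({0, 1} : Finset ℕ).filter (fun k => k ∈ s)) := by
    ext k
    simp only [Finset.mem_filter, Finset.mem_insert, Finset.mem_singleton]
    constructor
    · rintro ⟨h1, h2⟩
      exact ⟨by omega, h1⟩
    · rintro ⟨h1, h2⟩
      exact ⟨h2, by omega⟩
  have hsmall : ∑ k ∈ s.filter (fun k => ¬ 2 ≤ k), 2 ^ k =
      (if 0 ∈ s then 1 else 0) + (if 1 ∈ s then 2 else 0) := by
    rw [hset, Finset.sum_filter, Finset.sum_pair (by norm_num : (0 : ℕ) ≠ 1)]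
    norm_num
  set M := ∑ k ∈ s.filter (fun k => 2 ≤ k), 2 ^ k with hM
  rw [hsum, hsmall] at hsplit
  obtain ⟨m, hm⟩ := hbig
  have hM4 : M = 4 * (n / 4) := by
    by_cases h0 : 0 ∈ s <;> by_cases h1 : 1 ∈ s <;> simp only [h0, h1, if_true, if_false] at hsplit <;> omega
  refine ⟨?_, hM4, ?_⟩
  · by_cases h0 : 0 ∈ s <;> by_cases h1 : 1 ∈ s <;> simp only [h0, h1, if_true, if_false] at hsplit <;>
      simp only [h1, true_iff, false_iff] <;> omega
  · rw [← hM4]
    constructor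
    · intro hc
      obtain ⟨r, hr⟩ := Finset.card_eq_one.mp hc
      refine ⟨r, ?_⟩
      rw [hM, hr, Finset.sum_singleton]
    · rintro ⟨r, hr⟩
      have hinj := Finset.geomSum_injective (n := 2) le_rfl
      have : s.filter (fun k => 2 ≤ k) = {r} := by
        apply hinj
        simp only
        rw [Finset.sum_singleton, ← hM, hr]
      rw [this, Finset.card_singleton]

end Cfsg.Agent.Lib.Helper73.SY
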