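import Mathlib
import Cfsg.Agent.Lib.Helper73.SY.Defs
import Cfsg.Agent.Lib.Helper73.SY.CI

set_option autoImplicit false

namespace Cfsg.Agent.Lib.Helper73.SY

open Equiv

/-- A power of a full cycle fixing a point of `O` is trivial. -/
theorem pow_eq_one_of_fixed {α : Type} (c : Perm α) (O : Finset α) (hc : FullCycle c O)
    (k : ℕ) (x : α) (hx : x ∈ O) (h : (c ^ k) x = x) : c ^ k = 1 := by
  ext y
  by_cases hy : y ∈ O
  · obtain ⟨j, hj⟩ := hc.2 x hx y hy
    rw [← hj]
    calc (c ^ k) ((c ^ j) x) = (c ^ (k + j)) x := by rw [pow_add]; rfl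
      _ = (c ^ (j + k)) x := by rw [add_comm]
      _ = (c ^ j) ((c ^ k) x) := by rw [pow_add]; rfl
      _ = (c ^ j) x := by rw [h]
  · simpa using pow_apply_of_fixed c y (hc.1 y hy) k

/-- The order of a full cycle on `O` is at least the size of `O`. -/
theorem card_le_orderOf {α : Type} [Fintype α] [DecidableEq α] (c : Perm α) (O : Finset α)
    (hc : FullCycle c O) (hO : O.Nonempty) : O.card ≤ orderOf c := by
  obtain ⟨x₀, hx₀⟩ := hO
  have hsub : O ⊆ (Finset.range (orderOf c)).image (fun k => (c ^ k) x₀) := by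
    intro y hy
    obtain ⟨k, hk⟩ := hc.2 x₀ hx₀ y hy
    rw [Finset.mem_image]
    refine ⟨k % orderOf c, ?_, ?_⟩
    · rw [Finset.mem_range]
      exact Nat.mod_lt _ (orderOf_pos c)
    · rw [pow_mod_orderOf]
      exact hk
  calc O.card ≤ ((Finset.range (orderOf c)).image (fun k => (c ^ k) x₀)).card :=
        Finset.card_le_card hsub
    _ ≤ (Finset.range (orderOf c)).card := Finset.card_image_le
    _ = orderOf c := Finset.card_range _

theorem lemZW : LemZW := by
  intro α _ _ W O c a b hW hsupp hcW hc hO4 ha hb hab hswap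
  obtain ⟨e, he⟩ := orderOf_two_pow W hW c hcW
  have hON : O.card ≤ orderOf c := card_le_orderOf c O hc ⟨a, ha⟩
  have he2 : 2 ≤ e := by
    by_contra h
    have : e = 0 ∨ e = 1 := by omega
    rcases this with h | h <;> rw [he, h] at hON <;> omega
  set N := orderOf c with hN
  set z₀ := c ^ (N / 2) with hz₀
  -- key: a central element different from 1 equals z₀
  have hkey : ∀ z ∈ W, (∀ w ∈ W, z * w = w * z) → z = 1 ∨ z = z₀ := by
    intro z hz hcen
    by_cases hz1 : z = 1
    · left; exact hz1
    right
    obtain ⟨k, hk⟩ := eq_pow_of_commute c z O hc (hsupp z hz) (hcen c hcW)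
    -- z moves every point of O
    have hfpf : ∀ m : ℕ, c ^ m ≠ 1 → ∀ x ∈ O, (c ^ m) x ≠ x := by
      intro m hm x hx h
      exact hm (pow_eq_one_of_fixed c O hc m x hx h)
    -- z ^ 2 = 1
    have hzsq : z ^ 2 = 1 := by
      -- z commutes with swap a b
      have hcs := hcen (swap a b) hswap
      have hza : z a ≠ a := by
        rw [hk]
        exact hfpf k (by rw [← hk]; exact hz1) a ha
      -- z a = b
      have h1 : (z * swap a b) a = (swap a b * z) a := by rw [hcs]
      simp only [Perm.mul_apply, swap_apply_left] at h1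
      -- h1 : z b = swap a b (z a)
      have h2 : (z * swap a b) b = (swap a b * z) b := by rw [hcs]
      simp only [Perm.mul_apply, swap_apply_right] at h2
      -- h2 : z a = swap a b (z b)
      have hzab : z a = b := by
        by_contra hne
        have h3 : swap a b (z a) = z a := swap_apply_of_ne_of_ne hza hne
        rw [h3] at h1
        -- z b = z a → b = a
        exact hab (z.injective h1).symm
      have hzba : z b = a := by
        rw [h1, hzab, swap_apply_right]
      have hz2a : (z ^ 2) a = a := by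
        rw [pow_two, Perm.mul_apply, hzab, hzba]
      have : (c ^ (k * 2)) a = a := by
        rw [pow_mul, ← hk]
        exact hz2a
      have h4 := pow_eq_one_of_fixed c O hc (k * 2) a ha this
      rw [pow_mul, ← hk] at h4
      exact h4
    -- N ∣ 2 * k, ¬ N ∣ k
    have hd1 : N ∣ k * 2 := by
      apply orderOf_dvd_of_pow_eq_one
      rw [pow_mul, ← hk]
      exact hzsq
    have hd2 : ¬ N ∣ k := by
      intro h
      apply hz1
      rw [hk]
      exact orderOf_dvd_iff_pow_eq_one.mp h
    -- k % N = N / 2
    have hNpos : 0 < N := orderOf_pos c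
    have hNeven : 2 ∣ N := by
      rw [he]
      exact dvd_pow_self 2 (by omega)
    have hmod : k % N = N / 2 := by
      obtain ⟨M, hM⟩ := hNeven
      obtain ⟨d, hd⟩ := hd1
      have hMpos : 0 < M := by omega
      have hkM : k = M * d := by
        have : k * 2 = 2 * (M * d) := by rw [hd, hM]; ring
        omega
      have hdodd : d % 2 = 1 := by
        by_contra hcon
        have hde : d % 2 = 0 := by omega
        obtain ⟨d', hd'⟩ := Nat.dvd_of_mod_eq_zero hde
        apply hd2
        refine ⟨d', ?_⟩
        rw [hkM, hd', hM]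
        ring
      have hN2 : N / 2 = M := by omega
      rw [hN2, hkM, hM]
      have hd3 : d = 2 * (d / 2) + 1 := by omega
      have : M * d = M + 2 * M * (d / 2) := by
        nth_rewrite 1 [hd3]
        ring
      rw [this, Nat.add_mul_mod_self_left]
      exact Nat.mod_eq_of_lt (by omega)
    rw [hk, hz₀, ← pow_mod_orderOf, ← hN, hmod]
  -- existence of a nontrivial central element
  have hWne : Nontrivial ↥W := by
    refine ⟨⟨⟨swap a b, hswap⟩, 1, ?_⟩⟩
    intro h
    have h1 := congrArg Subtype.val h
    simp only [Subgroup.coe_one] at h1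
    exact hab (swap_eq_one_iff.mp h1)
  have : Fact (Nat.Prime 2) := ⟨Nat.prime_two⟩
  have := hWne
  have hcenter : Nontrivial (Subgroup.center ↥W) := IsPGroup.center_nontrivial hW
  obtain ⟨⟨z, hzc⟩, hzne⟩ := exists_ne (1 : Subgroup.center ↥W)
  have hz1 : (z : Perm α) ≠ 1 := by
    intro h
    apply hzne
    apply Subtype.ext
    apply Subtype.ext
    simpa using h
  have hzcen : ∀ w ∈ W, (z : Perm α) * w = w * (z : Perm α) := by
    intro w hw
    have := Subgroup.mem_center_iff.mp hzc ⟨w, hw⟩
    have h2 := congrArg Subtype.val this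
    simpa using h2.symm
  have hzz₀ : (z : Perm α) = z₀ := by
    rcases hkey z z.2 hzcen with h | h
    · exact absurd h hz1
    · exact h
  refine ⟨z₀, ?_, ?_, ?_, ?_, hkey⟩
  · rw [← hzz₀]; exact z.2
  · -- sign z₀ = 1
    rw [hz₀, map_pow]
    have h4 : N / 2 = 2 * (N / 4) := by
      rw [he]
      obtain ⟨e', rfl⟩ : ∃ e', e = e' + 2 := ⟨e - 2, by omega⟩
      rw [pow_add]
      omega
    rw [h4, pow_mul]
    have : (Perm.sign c) ^ 2 = 1 := by
      rcases Int.units_eq_one_or (Perm.sign c) with h | h <;> rw [h] <;> rfl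
    rw [this, one_pow]
  · rw [← hzz₀]; exact hz1
  · rw [← hzz₀]; exact hzcen

end Cfsg.Agent.Lib.Helper73.SY
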