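import Mathlib
import Cfsg.Agent.Lib.Helper73.SY.Main
import Cfsg.Agent.Lib.Helper73.SY.ZW
import Cfsg.Agent.Lib.Helper73.SY.CI
import Cfsg.Agent.Lib.Helper73.SY.Num
import Cfsg.Agent.Lib.Helper34.SY.IndMany
import Cfsg.Agent.Lib.Helper34.SY.IndOne
import Cfsg.Agent.Lib.Helper37.SY.DecFour
import Cfsg.Agent.Lib.Helper37.SY.IndTail
import Cfsg.Agent.Lib.Helper76.SY.OrbCyc
import Cfsg.Agent.Lib.Helper76.SY.DecTail
import Cfsg.Agent.Lib.Helper80.SY.Bridge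
import Cfsg.Agent.Lib.Helper80.SY.Ind
import Cfsg.Agent.Lib.Helper80.SY.OrbDistinct
import Cfsg.Agent.Lib.Helper80.SY.PartSyl
import Cfsg.Agent.Lib.Helper80.SY.Restr
import Cfsg.Agent.Lib.Helper80.SY.Struct

set_option autoImplicit false

/-! Project SY (S2221): final assembly of the packages. -/

namespace Cfsg.Agent.Lib.Helper73.SY

theorem lemPartSyl_all : LemPartSyl :=
  Cfsg.Agent.Lib.Helper80.SY.lemPartSyl_of Cfsg.Agent.Lib.Helper80.SY.lemRestr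

theorem lemStruct_all : LemStruct :=
  Cfsg.Agent.Lib.Helper80.SY.lemStruct_of Cfsg.Agent.Lib.Helper80.SY.lemRestr
    (Cfsg.Agent.Lib.Helper76.SY.lemOrbCyc_of lemPartSyl_all)
    (Cfsg.Agent.Lib.Helper80.SY.lemOrbDistinct_of Cfsg.Agent.Lib.Helper80.SY.lemRestr
      lemPartSyl_all)
    lemNum

theorem s2221 : S2221Stmt :=
  s2221_of Cfsg.Agent.Lib.Helper80.SY.lemBridge lemStruct_all
    Cfsg.Agent.Lib.Helper76.SY.lemDecTail
    (Cfsg.Agent.Lib.Helper37.SY.lemIndTail_of lemZW Cfsg.Agent.Lib.Helper80.SY.lemInd)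
    (Cfsg.Agent.Lib.Helper34.SY.lemIndMany_of lemZW lemCI)
    (Cfsg.Agent.Lib.Helper34.SY.lemIndOne_of lemZW Cfsg.Agent.Lib.Helper80.SY.lemInd)
    Cfsg.Agent.Lib.Helper37.SY.lemDecFour

end Cfsg.Agent.Lib.Helper73.SY
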